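import Groth.Agent.Dual.H316.FibDim
import Groth.Agent.Dual.H316.StalkTilde
import Groth.Agent.S1785
import Groth.Agent.LoccohB.RAdj
import Groth.Agent.LoccohB.LBC
import Groth.Agent.PerfB.TildeExact
import Groth.Agent.Dcoh.LocalD
import Mathlib.AlgebraicGeometry.Morphisms.FiniteType
import Mathlib.AlgebraicGeometry.Noetherian

/-!
# Lower bound for the cohomology sheaves of `f^! O_Y`, from the affine case

If on affine charts `K` is the tilde of the algebraic upper shriek `φ^!(R)`, then the stalk of `H^i(K)` at `x`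
vanishes for `i < -dim_x`.
-/

set_option autoImplicit false
universe u

open CategoryTheory CategoryTheory.Limits AlgebraicGeometry

attribute [local instance] HasDerivedCategory.standard

namespace Groth.Agent.Dual.H315.ShriekLow

open Groth.Agent.Dual.H316

variable {X Y : Scheme.{u}}

/-- On affine charts, `K` is the tilde of the algebraic upper shriek of the structure sheaf. -/
def Bridge (f : X ⟶ Y) (K : DCoh.D X) : Prop :=
  ∀ (R A : CommRingCat.{u}) (jU : Spec A ⟶ X) (jV : Spec R ⟶ Y) [IsOpenImmersion jU] [IsOpenImmersion jV]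
    (φ : R ⟶ A) (_ : jU ≫ f = Spec.map φ ≫ jV) (n : ℕ) (ψ : MvPolynomial (Fin n) R →+* A)
    (_ : Function.Surjective ψ) (_ : ψ.comp MvPolynomial.C = φ.hom)
    [DRing.HasLBaseChange (algebraMap R (MvPolynomial (Fin n) R))]
    [PreservesFiniteLimits (Scheme.Modules.restrictFunctor jU)] [PreservesFiniteLimits (tilde.functor A)]
    (Rψ : Dual.D (MvPolynomial (Fin n) R) ⥤ Dual.D A) (_ : DRing.restrictD ψ ⊣ Rψ),
    Nonempty ((DCoh.restrictD jU).obj K ≅ (DCoh.tildeD A).obj (Dual2.shriekVia n Rψ (Dual.inD R R)))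

/-- The lower bound of the degrees with nonzero stalks, given the description on charts. -/
theorem neg_le_of_nontrivial_stalk (f : X ⟶ Y) [LocallyOfFiniteType f] [IsLocallyNoetherian Y]
    [IsLocallyNoetherian X] (K : DCoh.D X) (hB : Bridge f K) (x : X) (n : ℕ)
    (hn : Dual3.localFibreDim f x ≤ (n : WithBot ℕ∞)) (i : ℤ)
    (hi : Nontrivial ((DCoh.HD K i).presheaf.stalk x)) : -(n : ℤ) ≤ i := by
  obtain ⟨V, hV, hfx, -⟩ := exists_isAffineOpen_mem_and_subset (x := f x) (U := ⊤) trivial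
  obtain ⟨U, hU, hx, hUV⟩ := exists_isAffineOpen_mem_and_subset (x := x) (U := f ⁻¹ᵁ V) hfx
  have e : U ≤ f ⁻¹ᵁ V := hUV
  have hφ : (f.appLE V U e).hom.FiniteType := f.finiteType_appLE hV hU e
  let : Algebra Γ(Y, V) Γ(X, U) := (f.appLE V U e).hom.toAlgebra
  have : Algebra.FiniteType Γ(Y, V) Γ(X, U) := hφ
  have : IsNoetherianRing Γ(Y, V) := IsLocallyNoetherian.component_noetherian ⟨V, hV⟩
  have : IsNoetherianRing Γ(X, U) := IsLocallyNoetherian.component_noetherian ⟨U, hU⟩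
  obtain ⟨m, ψ, hψ⟩ := Algebra.FiniteType.iff_quotient_mvPolynomial''.mp
    (inferInstance : Algebra.FiniteType Γ(Y, V) Γ(X, U))
  have hx' : x ∈ Set.range hU.fromSpec := by
    rw [hU.range_fromSpec]; exact hx
  obtain ⟨q, hq⟩ := hx'
  have w : hU.fromSpec ≫ f = Spec.map (f.appLE V U e) ≫ hV.fromSpec :=
    (IsAffineOpen.SpecMap_appLE_fromSpec f hV hU e).symm
  have := PerfB.TildeExact.preservesFiniteLimits_tilde Γ(X, U)
  have := Dcoh.LocalD.preservesFiniteLimits_restrict hU.fromSpec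
  have := LoccohB.LBC.hasLBaseChange (algebraMap Γ(Y, V) (MvPolynomial (Fin m) Γ(Y, V)))
  obtain ⟨e1⟩ := hB Γ(Y, V) Γ(X, U) hU.fromSpec hV.fromSpec (f.appLE V U e) w m ψ.toRingHom hψ
    (by ext r; exact ψ.commutes r) (LoccohB.RAdj.RCoext ψ.toRingHom)
    (LoccohB.RAdj.coextAdj ψ.toRingHom)
  obtain ⟨d, hd, hd'⟩ := FibDim.exists_nat_of_chart f (Spec.map (f.appLE V U e)) hU.fromSpec
    hV.fromSpec w q n (by rw [hq]; exact hn)
  have h1 := (StalkTilde.nontrivial_iff hU.fromSpec K _ e1 q i).mp (by rw [hq]; exact hi)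
  have h2 := S1785.result Γ(Y, V) Γ(X, U) m ψ hψ (LoccohB.RAdj.RCoext ψ.toRingHom)
    (LoccohB.RAdj.coextAdj ψ.toRingHom) q d hd' i h1
  omega

end Groth.Agent.Dual.H315.ShriekLow
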